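import Cfsg.Agent.H254.BS.PartI
import Cfsg.Agent.H684.AltEmb
import Cfsg.Agent.Lib.Involves

/-!
# S5717, PART I, N5: alternating sections of the classical groups
-/

set_option autoImplicit false

namespace Cfsg.Agent.H537.BS

open Cfsg.Agent.H254.BS.PI Cfsg.Agent.H684.AltEmb

theorem altIn_mono {d n : ℕ} (hdn : d ≤ n) {S : Type*} [Group S] (h : AltIn n S) : AltIn d S := by
  obtain ⟨g, hg⟩ := h
  let f0 : alternatingGroup (Fin d) →* Equiv.Perm (Fin n) :=
    (Equiv.Perm.viaEmbeddingHom (Fin.castLEEmb hdn)).comp (alternatingGroup (Fin d)).subtype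
  have hsign : ∀ c, f0 c ∈ alternatingGroup (Fin n) := by
    intro c
    rw [Equiv.Perm.mem_alternatingGroup]
    show Equiv.Perm.sign (Equiv.Perm.viaEmbedding (c : Equiv.Perm (Fin d)) (Fin.castLEEmb hdn)) = 1
    have h1 : Equiv.Perm.sign (Equiv.Perm.viaEmbedding (c : Equiv.Perm (Fin d)) (Fin.castLEEmb hdn)) =
        Equiv.Perm.sign (c : Equiv.Perm (Fin d)) := by
      unfold Equiv.Perm.viaEmbedding
      rw [Equiv.Perm.sign_extendDomain]
    rw [h1]
    exact Equiv.Perm.mem_alternatingGroup.1 c.2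
  refine ⟨g.comp (f0.codRestrict _ hsign), hg.comp ?_⟩
  rw [MonoidHom.injective_codRestrict]
  exact (Equiv.Perm.viaEmbeddingHom_injective (Fin.castLEEmb hdn)).comp (Subgroup.subtype_injective _)

theorem involves_of_altIn {d n : ℕ} (hdn : d ≤ n) {S : Type*} [Group S] (h : AltIn n S) :
    Cfsg.Involves (alternatingGroup (Fin d)) S := by
  obtain ⟨g, hg⟩ := altIn_mono hdn h
  exact Lib.Involves.involves_iff.1 (Lib.Involves.of_injective g hg)

theorem le_of {d n : ℕ} (h5 : 5 ≤ d) {S : Type*} [Group S] (h : 5 ≤ n → AltIn n S)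
    (hn : ¬ Cfsg.Involves (alternatingGroup (Fin d)) S) : n ≤ 1 * d := by
  by_contra h1
  exact hn (involves_of_altIn (n := n) (by omega) (h (by omega)))

theorem a_PSL : A_PSL := ⟨1, fun _ _ _ _ _ h5 _ h => le_of h5 altIn_psl h⟩

theorem a_PSp : A_PSp := ⟨1, fun _ _ _ _ _ h5 h => le_of h5 altIn_psp h⟩

theorem a_PSU : A_PSU := ⟨1, fun _ _ _ _ q _ _ h5 h => le_of h5 (altIn_psu q) h⟩

theorem a_POdd : A_POdd := ⟨1, fun _ _ _ _ _ h5 _ h => le_of h5 altIn_odd h⟩

theorem a_PPlus : A_PPlus := ⟨1, fun _ _ _ _ _ h5 h => le_of h5 altIn_plus h⟩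

theorem a_PMinus : A_PMinus := ⟨1, fun _ _ _ _ _ a b h5 h => le_of h5 (altIn_minus a b) h⟩

end Cfsg.Agent.H537.BS
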